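import Cfsg.Agent.H6.PG

set_option autoImplicit false
set_option maxRecDepth 100000
set_option Elab.async false

namespace Cfsg.H6.LR.L

def R : List (List ℕ) := [[3,3,3], [1,3,1,3,1,3], [2,3,2,3,2,3], [1,2,1,2,3,1,2,1,2,4], [3,5,3,5], [2,5,2,5], [1,4,5,1,4,5], [2,5,6,2,6], [3,6,3,6,3,6], [1,2,1,6,1,2,5,1,6], [3,7,3,7,3,7], [1,4,7,5,1,5,7,5], [1,2,1,5,1,7,2,7,1,5], [6,7,6,7,6,7], [8,1,8,1], [8,2,8,2], [8,5,8,5,8,5], [8,6,8,6,8,6,8,6,8,6], [8,7,8,7,8,7,8,7,8,7], [8,4,6,3,8,4,6,3,8,4,6,3,8,4,6,3,8,4,6,3], [8,4,7,3,8,4,7,3,8,4,7,3,8,4,7,3,8,4,7,3], [8,3,8,3,10], [9,9,9], [9,1,10,1], [9,2,10,2], [9,3,10,4], [9,5,10,5], [9,6,10,6], [9,7,10,7], [9,8,10,8], [12,1,2,7,4,6,3], [14,7,6,1,2,4,6], [16,1,2,4,6,7,6], [17,6,3,8,6,7,6,8,4,6], [19,9,18,12], [19,11,18,10], [19,13,18,14], [19,15,18,15], [19,17,18,15,14,16,13,15,17,16,14,15,13,16], [18,18], [18,2,7,2,18,2,7,2,18,2,7,2]]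

def X : List (List ℕ) := [[1], [2], [3], [5], [6], [7], [8], [9], [11], [13], [15], [17], [18]]

/-- The presented group. -/
abbrev Grp : Type := PG 103187034068032969634844306332357632719251964160 R

def ev : ℕ → Grp := pgEv 103187034068032969634844306332357632719251964160 R

theorem hev : Good ev 103187034068032969634844306332357632719251964160 := pg_good _ _

theorem hR : Rels ev R := pg_rels _ _

theorem hX : gen ev X = ⊤ := pg_gen (m := 20) (by decide +kernel)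

theorem lift {G : Type*} [Group G] {ev' : ℕ → G} (h : Good ev' 103187034068032969634844306332357632719251964160) (h' : Rels ev' R) :
    ∃ φ : Grp →* G, ∀ l, φ (ev l) = ev' l := pg_lift h h'

end Cfsg.H6.LR.L
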